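import Cfsg.Agent.H63.EightTwo
import Cfsg.Prelude.Def_CaseTheorems

/-!
# S4907, DM25: the double covers of `Ω₈⁺(2)` are isomorphic (helper42)
-/

set_option autoImplicit false

namespace Cfsg.Agent.H42.DM

open Cfsg
open Cfsg.Agent.OddHalf.D9.EEight (K₀)
open Cfsg.Agent.KFacts.OddLift.Basic (Cov)

theorem plus_map {F K : Type*} [Field F] [Field K] (σ : F ≃+* K) (m : ℕ) (v : Fin m ⊕ Fin m → F) :
    quadFormPlus m K (σ ∘ v) = σ (quadFormPlus m F v) := by
  simp [quadFormPlus, map_sum, map_mul]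

/-- a quasisimple group with centre of order 2 and central quotient `Ω₈⁺(2)` is `W(E₈)'` -/
theorem o8_equiv {G : Type*} [Group G] (hG : Cfsg.IsQuasisimple G) {F : Type*} [Field F] [Fintype F]
    (hF : Fintype.card F = 2) (eG : G ⧸ Subgroup.center G ≃* Cfsg.POmega F (Cfsg.quadFormPlus 4 F))
    (cG : Nat.card (Subgroup.center G) = 2) : Nonempty (G ≃* K₀) := by
  have hZ : Fintype.card (ZMod 2) = 2 := ZMod.card 2
  obtain ⟨e1⟩ := Cfsg.Agent.UGT.U2.Rec.Congr.nonempty_POmega _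
    (plus_map (FiniteField.ringEquivOfCardEq (hF.trans hZ.symm)) 4)
  obtain ⟨e2⟩ := Cfsg.Agent.H63.EightTwo.exists_equiv
  set e := (eG.trans e1).trans e2
  set π := e.toMonoidHom.comp (QuotientGroup.mk' (Subgroup.center G)) with hπ
  have hk : π.ker = Subgroup.center G := by
    ext x
    rw [MonoidHom.mem_ker, hπ]
    show e (QuotientGroup.mk x) = 1 ↔ _
    rw [map_eq_one_iff e e.injective, QuotientGroup.eq_one_iff]
  have hc : Cov π := by
    refine ⟨e.surjective.comp (QuotientGroup.mk'_surjective _), hk.le, ?_, hG.1.commutator_eq_top⟩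
    rw [hk]
    exact IsPGroup.of_card (n := 1) (by rw [cG, pow_one])
  refine Cfsg.Agent.OddHalf.D9.EEight.Id.Main.exists_iso hc ?_ ?_
  · rw [hk]
    intro h
    rw [h, Subgroup.card_bot] at cG
    omega
  · rw [hk]
    have : Fact (Nat.Prime 2) := ⟨Nat.prime_two⟩
    exact isCyclic_of_prime_card cG

/-- **DM25.** -/
theorem o8_double {G H : Type*} [Group G] [Finite G] [Group H] [Finite H]
    (hG : Cfsg.IsQuasisimple G) (hH : Cfsg.IsQuasisimple H) {F : Type*} [Field F] [Fintype F]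
    (hF : Fintype.card F = 2) (eG : G ⧸ Subgroup.center G ≃* Cfsg.POmega F (Cfsg.quadFormPlus 4 F))
    (eH : H ⧸ Subgroup.center H ≃* Cfsg.POmega F (Cfsg.quadFormPlus 4 F))
    (cG : Nat.card (Subgroup.center G) = 2) (cH : Nat.card (Subgroup.center H) = 2) : Nonempty (G ≃* H) := by
  obtain ⟨e⟩ := o8_equiv hG hF eG cG
  obtain ⟨e'⟩ := o8_equiv hH hF eH cH
  exact ⟨e.trans e'.symm⟩

end Cfsg.Agent.H42.DM
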